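import Cfsg.Agent.Lib.Helper35.D8M.Defs

set_option autoImplicit false

/-! # S4407 farm, piece P1: `card_E_map`, `exp_E_map`, `fix_E_iff`, `classify` -/

namespace Cfsg.Agent.Lib.Helper35.D8M

open DihedralGroup

theorem h11_card_E (k : ZMod 4) : Nat.card (E k) = 4 := by
  classical
  have hs : ∀ k : ZMod 4, ({1, r 2, sr k, sr (k + 2)} : Finset (DihedralGroup 4)).card = 4 := by
    decide
  refine Eq.trans ?_ (hs k)
  rw [← Set.ncard_coe_finset]
  change ((E k : Subgroup (DihedralGroup 4)) : Set (DihedralGroup 4)).ncard = _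
  congr 1
  ext x
  simp only [SetLike.mem_coe, mem_E, Finset.coe_insert, Finset.coe_singleton, Set.mem_insert_iff,
    Set.mem_singleton_iff]

theorem card_E_map {S : Type*} [Group S] (ψ : DihedralGroup 4 →* S) (hψ : Function.Injective ψ)
    (k : ZMod 4) : Nat.card ((E k).map ψ) = 4 := by
  rw [Subgroup.card_map_of_injective hψ, h11_card_E]

theorem exp_E_map {S : Type*} [Group S] (ψ : DihedralGroup 4 →* S) (k : ZMod 4) :
    ∀ b ∈ (E k).map ψ, b ^ 2 = 1 := by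
  rintro _ ⟨e, he, rfl⟩
  have : ∀ (k : ZMod 4) (e : DihedralGroup 4),
      (e = 1 ∨ e = r 2 ∨ e = sr k ∨ e = sr (k + 2)) → e ^ 2 = 1 := by decide
  rw [← map_pow, this k e he, map_one]

theorem fix_E_iff {S : Type*} [Group S] (ψ : DihedralGroup 4 →* S) (k : ZMod 4)
    {M : Type*} [AddCommGroup M] [Module (ZMod 2) M] (ρ : Representation (ZMod 2) S M) (m : M) :
    (∀ b ∈ (E k).map ψ, ρ b m = m) ↔ ρ (ψ (r 2)) m = m ∧ ρ (ψ (sr k)) m = m := by
  constructor
  · intro h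
    exact ⟨h _ ⟨r 2, Or.inr (Or.inl rfl), rfl⟩, h _ ⟨sr k, Or.inr (Or.inr (Or.inl rfl)), rfl⟩⟩
  · rintro ⟨h1, h2⟩ _ ⟨e, he, rfl⟩
    rcases he with rfl | rfl | rfl | rfl
    · rw [map_one, map_one]; rfl
    · exact h1
    · exact h2
    · have : ∀ k : ZMod 4, (sr (k + 2) : DihedralGroup 4) = sr k * r 2 := by decide
      rw [this, map_mul, map_mul, Module.End.mul_apply, h1, h2]

theorem classify {S : Type*} [Group S] (ψ : DihedralGroup 4 →* S) (hψ : Function.Injective ψ)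
    (k : ZMod 4) (B : Subgroup S) (hB : B ≤ ψ.range) (h4 : Nat.card B = 4)
    (h2 : ∀ b ∈ B, b ^ 2 = 1) : B = (E k).map ψ ∨ B = (E (k + 1)).map ψ := by
  have hfin : Finite B := Nat.finite_of_card_ne_zero (by rw [h4]; norm_num)
  have hfinE : ∀ j, Finite ((E j).map ψ) := fun j =>
    Nat.finite_of_card_ne_zero (by rw [card_E_map ψ hψ]; norm_num)
  have heq : ∀ j, B ≤ (E j).map ψ → B = (E j).map ψ := by
    intro j hle
    have := hfinE j
    exact Subgroup.eq_of_le_of_card_ge hle (by rw [h4, card_E_map ψ hψ])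
  by_cases hle : B ≤ (E k).map ψ
  · exact Or.inl (heq k hle)
  · right
    apply heq
    obtain ⟨x, hxB, hxE⟩ := SetLike.not_le_iff_exists.1 hle
    obtain ⟨d, rfl⟩ := hB hxB
    have hdE : d ∉ E k := fun h => hxE ⟨d, h, rfl⟩
    have hd2 : d ^ 2 = 1 := by
      apply hψ; rw [map_pow, map_one]; exact h2 _ hxB
    intro y hyB
    obtain ⟨e, rfl⟩ := hB hyB
    have he2 : e ^ 2 = 1 := by
      apply hψ; rw [map_pow, map_one]; exact h2 _ hyB
    have hde2 : (d * e) ^ 2 = 1 := by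
      apply hψ; rw [map_pow, map_mul, map_one]; exact h2 _ (B.mul_mem hxB hyB)
    refine ⟨e, ?_, rfl⟩
    have key : ∀ (k : ZMod 4) (d e : DihedralGroup 4),
        ¬ (d = 1 ∨ d = r 2 ∨ d = sr k ∨ d = sr (k + 2)) → d ^ 2 = 1 → e ^ 2 = 1 →
        (d * e) ^ 2 = 1 → (e = 1 ∨ e = r 2 ∨ e = sr (k + 1) ∨ e = sr (k + 1 + 2)) := by decide
    exact key k d e hdE hd2 he2 hde2

end Cfsg.Agent.Lib.Helper35.D8M
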