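import Cfsg.Agent.Lib.Helper35.D8M.Defs

set_option autoImplicit false

/-! # S4407 farm, piece P2A: `faithful`, `gen`, `z_inverts` -/

namespace Cfsg.Agent.Lib.Helper35.D8M

open DihedralGroup

theorem faithful {S : Type*} [Group S] (A : Subgroup S) (hexp : ∀ x ∈ A, x ^ 3 = 1)
    (hAC : Subgroup.centralizer (A : Set S) = A)
    (ψ : DihedralGroup 4 →* S) (hψ : Function.Injective ψ) (d : DihedralGroup 4)
    (hd : ∀ x ∈ A, ψ d * x = x * ψ d) : d = 1 := by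
  have h1 : ψ d ∈ Subgroup.centralizer (A : Set S) := by
    rw [Subgroup.mem_centralizer_iff]
    intro x hx
    exact (hd x hx).symm
  rw [hAC] at h1
  have h3 := hexp _ h1
  have h8 : (ψ d) ^ 8 = 1 := by
    rw [← map_pow]
    have : ∀ e : DihedralGroup 4, e ^ 8 = 1 := by decide
    rw [this, map_one]
  have : ψ d = 1 := by
    calc ψ d = (ψ d) ^ 9 * ((ψ d) ^ 8)⁻¹ := by group
      _ = 1 := by rw [h8, show (9:ℕ) = 3 * 3 from rfl, pow_mul, h3]; simp
  exact hψ (by rw [this, map_one])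

theorem h11_eq_one_of_eq_inv {S : Type*} [Group S] (v : S) (h3 : v ^ 3 = 1) (h : v = v⁻¹) :
    v = 1 := by
  have h2 : v * v = 1 := by
    nth_rewrite 2 [h]; exact mul_inv_cancel v
  calc v = v ^ 3 * (v * v)⁻¹ := by group
    _ = 1 := by rw [h3, h2]; simp

theorem gen {S : Type*} [Group S] [Finite S] (A : Subgroup S) (hexp : ∀ x ∈ A, x ^ 3 = 1)
    (hA9 : Nat.card A = 9) (T : Subgroup S) (hT : T ≤ A) (v w : S) (hv : v ∈ T) (hw : w ∈ T)
    (hv1 : v ≠ 1) (hw1 : w ≠ 1) (hwv : w ≠ v) (hwv' : w ≠ v⁻¹) : T = A := by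
  classical
  have hdvd : Nat.card T ∣ 9 := hA9 ▸ Subgroup.card_dvd_of_le hT
  have hvv : v ≠ v⁻¹ := fun h => hv1 (h11_eq_one_of_eq_inv v (hexp v (hT hv)) h)
  have hs : ({1, v, v⁻¹, w} : Finset S).card = 4 := by
    rw [Finset.card_insert_of_notMem, Finset.card_insert_of_notMem,
      Finset.card_insert_of_notMem, Finset.card_singleton]
    · simp only [Finset.mem_singleton]; exact fun h => hwv' h.symm
    · simp only [Finset.mem_insert, Finset.mem_singleton, not_or]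
      exact ⟨hvv, fun h => hwv h.symm⟩
    · simp only [Finset.mem_insert, Finset.mem_singleton, not_or]
      refine ⟨fun h => hv1 h.symm, fun h => hv1 ?_, fun h => hw1 h.symm⟩
      exact inv_eq_one.1 h.symm
  have h4 : 4 ≤ Nat.card T := by
    rw [← hs, ← Set.ncard_coe_finset]
    change _ ≤ (T : Set S).ncard
    apply Set.ncard_le_ncard _ (Set.toFinite _)
    intro x hx
    simp only [Finset.coe_insert, Finset.coe_singleton, Set.mem_insert_iff,
      Set.mem_singleton_iff] at hx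
    rcases hx with rfl | rfl | rfl | rfl
    · exact T.one_mem
    · exact hv
    · exact T.inv_mem hv
    · exact hw
  have h9 : Nat.card T = 9 := by
    have hle : Nat.card T ≤ 9 := Nat.le_of_dvd (by norm_num) hdvd
    generalize Nat.card T = n at *
    interval_cases n <;> first | rfl | (exfalso; revert hdvd; decide)
  exact Subgroup.eq_of_le_of_card_ge hT (by rw [hA9, h9])

theorem z_inverts {S : Type*} [Group S] [Finite S] (A : Subgroup S) [A.Normal]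
    (hcomm : ∀ x ∈ A, ∀ y ∈ A, x * y = y * x) (hexp : ∀ x ∈ A, x ^ 3 = 1)
    (hA9 : Nat.card A = 9) (hAC : Subgroup.centralizer (A : Set S) = A)
    (ψ : DihedralGroup 4 →* S) (hψ : Function.Injective ψ) :
    ∀ x ∈ A, ψ (r 2) * x = x⁻¹ * ψ (r 2) := by
  obtain ⟨z, hz⟩ : ∃ z, z = ψ (r 2) := ⟨_, rfl⟩
  obtain ⟨ρ, hρ⟩ : ∃ ρ, ρ = ψ (r 1) := ⟨_, rfl⟩
  rw [← hz]
  have hzz : z * z = 1 := by
    rw [hz, ← map_mul]
    have : (r 2 : DihedralGroup 4) * r 2 = 1 := by decide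
    rw [this, map_one]
  have hzi : z⁻¹ = z := inv_eq_of_mul_eq_one_left hzz
  have hρρ : ρ * ρ = z := by
    rw [hz, hρ, ← map_mul]
    have : (r 1 : DihedralGroup 4) * r 1 = r 2 := by decide
    rw [this]
  have hzρ : z * ρ = ρ * z := by rw [← hρρ, mul_assoc]
  have hzρi : z * ρ⁻¹ = ρ⁻¹ * z := by
    calc z * ρ⁻¹ = ρ⁻¹ * (ρ * z) * ρ⁻¹ := by group
      _ = ρ⁻¹ * (z * ρ) * ρ⁻¹ := by rw [hzρ]
      _ = ρ⁻¹ * z := by group
  let I : Subgroup S :=
    { carrier := {x | x ∈ A ∧ z * x = x⁻¹ * z}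
      one_mem' := ⟨A.one_mem, by simp⟩
      mul_mem' := by
        rintro a b ⟨ha, ha'⟩ ⟨hb, hb'⟩
        refine ⟨A.mul_mem ha hb, ?_⟩
        rw [← mul_assoc, ha', mul_assoc, hb', ← mul_assoc, mul_inv_rev,
          hcomm _ (A.inv_mem hb) _ (A.inv_mem ha)]
      inv_mem' := by
        rintro a ⟨ha, ha'⟩
        refine ⟨A.inv_mem ha, ?_⟩
        rw [inv_inv]
        calc z * a⁻¹ = a * (a⁻¹ * z) * a⁻¹ := by group
          _ = a * (z * a) * a⁻¹ := by rw [ha']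
          _ = a * z := by group }
  have hImem : ∀ x, x ∈ I ↔ x ∈ A ∧ z * x = x⁻¹ * z := fun x => Iff.rfl
  have hIA : I ≤ A := fun x hx => hx.1
  -- z does not centralise A
  obtain ⟨x, hxA, hx⟩ : ∃ x ∈ A, z * x ≠ x * z := by
    by_contra hcon
    push Not at hcon
    have := faithful A hexp hAC ψ hψ (r 2) (by rw [← hz]; exact hcon)
    revert this; decide
  obtain ⟨x', hx'⟩ : ∃ x', x' = z * x * z := ⟨_, rfl⟩
  have hx'A : x' ∈ A := by
    rw [hx']
    have := (inferInstance : A.Normal).conj_mem x hxA z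
    rwa [hzi] at this
  have e1 : z * x = x' * z := by rw [hx', mul_assoc, hzz, mul_one]
  have e2 : z * x' = x * z := by rw [hx', ← mul_assoc, ← mul_assoc, hzz, one_mul]
  have e3 : z * x'⁻¹ = x⁻¹ * z := by
    calc z * x'⁻¹ = x⁻¹ * (x * z) * x'⁻¹ := by group
      _ = x⁻¹ * (z * x') * x'⁻¹ := by rw [e2]
      _ = x⁻¹ * z := by group
  obtain ⟨v, hv⟩ : ∃ v, v = x * x'⁻¹ := ⟨_, rfl⟩
  have hvI : v ∈ I := by
    rw [hImem]
    refine ⟨by rw [hv]; exact A.mul_mem hxA (A.inv_mem hx'A), ?_⟩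
    rw [hv, ← mul_assoc, e1, mul_assoc, e3, mul_inv_rev, inv_inv, mul_assoc]
  have hv1 : v ≠ 1 := by
    intro h
    rw [hv, mul_inv_eq_one] at h
    apply hx
    rw [e1, ← h]
  have hv3 : v ^ 3 = 1 := hexp v hvI.1
  obtain ⟨w, hw⟩ : ∃ w, w = ρ * v * ρ⁻¹ := ⟨_, rfl⟩
  have hwI : w ∈ I := by
    rw [hImem]
    refine ⟨by rw [hw]; exact (inferInstance : A.Normal).conj_mem v hvI.1 ρ, ?_⟩
    rw [hw]
    calc z * (ρ * v * ρ⁻¹) = (z * ρ) * v * ρ⁻¹ := by group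
      _ = ρ * (z * v) * ρ⁻¹ := by rw [hzρ]; group
      _ = ρ * v⁻¹ * (z * ρ⁻¹) := by rw [hvI.2]; group
      _ = (ρ * v * ρ⁻¹)⁻¹ * z := by rw [hzρi]; group
  have hw1 : w ≠ 1 := by
    intro h
    apply hv1
    rw [hw] at h
    calc v = ρ⁻¹ * (ρ * v * ρ⁻¹) * ρ := by group
      _ = 1 := by rw [h]; group
  have key : ρ * w * ρ⁻¹ = v⁻¹ := by
    rw [hw]
    calc ρ * (ρ * v * ρ⁻¹) * ρ⁻¹ = (ρ * ρ) * v * (ρ * ρ)⁻¹ := by group
      _ = (z * v) * z⁻¹ := by rw [hρρ]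
      _ = v⁻¹ := by rw [hvI.2]; group
  have hwv : w ≠ v := by
    intro h
    apply hv1
    apply h11_eq_one_of_eq_inv v hv3
    rw [← key, h, ← hw, h]
  have hwv' : w ≠ v⁻¹ := by
    intro h
    apply hv1
    apply h11_eq_one_of_eq_inv v hv3
    rw [← key, h]
    calc v = (v⁻¹)⁻¹ := (inv_inv v).symm
      _ = (ρ * v * ρ⁻¹)⁻¹ := by rw [← hw, h]
      _ = ρ * v⁻¹ * ρ⁻¹ := by group
  have hIeq : I = A := gen A hexp hA9 I hIA v w hvI hwI hv1 hw1 hwv hwv'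
  intro y hy
  rw [← hIeq] at hy
  exact hy.2

end Cfsg.Agent.Lib.Helper35.D8M
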