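import Cfsg.Agent.Lib.Helper11.D8M.P2A

set_option autoImplicit false

/-! # S4407 farm, piece P2B: `exists_c`, `rels` -/

namespace Cfsg.Agent.Lib.Helper35.D8M

open DihedralGroup

theorem exists_c {S : Type*} [Group S] [Finite S] (A : Subgroup S) [A.Normal]
    (hcomm : ∀ x ∈ A, ∀ y ∈ A, x * y = y * x) (hexp : ∀ x ∈ A, x ^ 3 = 1)
    (hAC : Subgroup.centralizer (A : Set S) = A)
    (ψ : DihedralGroup 4 →* S) (hψ : Function.Injective ψ)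
    (hz : ∀ x ∈ A, ψ (r 2) * x = x⁻¹ * ψ (r 2)) :
    ∃ c ∈ A, c ≠ 1 ∧ ψ (sr 0) * c = c * ψ (sr 0) := by
  obtain ⟨s, hs⟩ : ∃ s, s = ψ (sr 0) := ⟨_, rfl⟩
  obtain ⟨z, hzd⟩ : ∃ z, z = ψ (r 2) := ⟨_, rfl⟩
  rw [← hs]
  rw [← hzd] at hz
  have hss : s * s = 1 := by
    rw [hs, ← map_mul]
    have : (sr 0 : DihedralGroup 4) * sr 0 = 1 := by decide
    rw [this, map_one]
  have hsi : s⁻¹ = s := inv_eq_of_mul_eq_one_left hss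
  have he : ψ (sr 2) = s * z := by
    rw [hs, hzd, ← map_mul]
    have : (sr 0 : DihedralGroup 4) * r 2 = sr 2 := by decide
    rw [this]
  obtain ⟨x, hxA, hx⟩ : ∃ x ∈ A, ψ (sr 2) * x ≠ x * ψ (sr 2) := by
    by_contra hcon
    push Not at hcon
    have := faithful A hexp hAC ψ hψ (sr 2) hcon
    revert this; decide
  obtain ⟨x', hx'⟩ : ∃ x', x' = s * x * s := ⟨_, rfl⟩
  have hx'A : x' ∈ A := by
    rw [hx']
    have := (inferInstance : A.Normal).conj_mem x hxA s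
    rwa [hsi] at this
  have e1 : s * x = x' * s := by rw [hx', mul_assoc, hss, mul_one]
  have e2 : s * x' = x * s := by rw [hx', ← mul_assoc, ← mul_assoc, hss, one_mul]
  refine ⟨x * x', A.mul_mem hxA hx'A, ?_, ?_⟩
  · intro h
    apply hx
    have hxi : x' = x⁻¹ := (inv_eq_of_mul_eq_one_right h).symm
    have e3 : s * x⁻¹ = x * s := by rw [← hxi]; exact e2
    rw [he, mul_assoc, hz x hxA, ← mul_assoc, e3, mul_assoc]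
  · rw [← mul_assoc, e1, mul_assoc, e2, ← mul_assoc, hcomm _ hx'A _ hxA]

theorem rels {S : Type*} [Group S] (A : Subgroup S) [A.Normal] (hexp : ∀ x ∈ A, x ^ 3 = 1)
    (ψ : DihedralGroup 4 →* S) (hz : ∀ x ∈ A, ψ (r 2) * x = x⁻¹ * ψ (r 2)) (k : ZMod 4)
    (c : S) (hcA : c ∈ A) (hc1 : c ≠ 1) (hsc : ψ (sr k) * c = c * ψ (sr k)) (d : S)
    (hd : d = ψ (r 1) * c * (ψ (r 1))⁻¹) :
    d ∈ A ∧ d ≠ 1 ∧ d ≠ c ∧ d ≠ c⁻¹ ∧ ψ (r 1) * c = d * ψ (r 1) ∧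
      ψ (r 1) * d = c⁻¹ * ψ (r 1) ∧ ψ (sr k) * d = d⁻¹ * ψ (sr k) := by
  obtain ⟨s, hs⟩ : ∃ s, s = ψ (sr k) := ⟨_, rfl⟩
  obtain ⟨z, hzd⟩ : ∃ z, z = ψ (r 2) := ⟨_, rfl⟩
  obtain ⟨ρ, hρ⟩ : ∃ ρ, ρ = ψ (r 1) := ⟨_, rfl⟩
  rw [← hs] at hsc ⊢
  rw [← hzd] at hz
  rw [← hρ] at hd ⊢
  have hρρ : ρ * ρ = z := by
    rw [hzd, hρ, ← map_mul]
    have : (r 1 : DihedralGroup 4) * r 1 = r 2 := by decide
    rw [this]
  have hsρ : s * ρ = ρ⁻¹ * s := by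
    rw [hs, hρ, ← map_inv, ← map_mul, ← map_mul]
    have : ∀ k : ZMod 4, (sr k : DihedralGroup 4) * r 1 = (r 1)⁻¹ * sr k := by decide
    rw [this]
  have hsρi : s * ρ⁻¹ = ρ * s := by
    calc s * ρ⁻¹ = ρ * (ρ⁻¹ * s) * ρ⁻¹ := by group
      _ = ρ * (s * ρ) * ρ⁻¹ := by rw [hsρ]
      _ = ρ * s := by group
  have hdA : d ∈ A := by rw [hd]; exact (inferInstance : A.Normal).conj_mem c hcA ρ
  have hd1 : d ≠ 1 := by
    intro h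
    apply hc1
    rw [hd] at h
    calc c = ρ⁻¹ * (ρ * c * ρ⁻¹) * ρ := by group
      _ = 1 := by rw [h]; group
  have r1 : ρ * c = d * ρ := by rw [hd]; group
  have r2 : ρ * d = c⁻¹ * ρ := by
    rw [hd]
    calc ρ * (ρ * c * ρ⁻¹) = (ρ * ρ) * c * ρ⁻¹ := by group
      _ = (z * c) * ρ⁻¹ := by rw [hρρ]
      _ = c⁻¹ * (ρ * ρ) * ρ⁻¹ := by rw [hz c hcA, hρρ]
      _ = c⁻¹ * ρ := by group
  have r2' : ρ⁻¹ * c = d⁻¹ * ρ⁻¹ := by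
    -- from r2 : ρ d = c⁻¹ ρ
    calc ρ⁻¹ * c = d⁻¹ * (ρ⁻¹ * (c⁻¹ * ρ) * d⁻¹)⁻¹ * ρ⁻¹ := by group
      _ = d⁻¹ * (ρ⁻¹ * (ρ * d) * d⁻¹)⁻¹ * ρ⁻¹ := by rw [r2]
      _ = d⁻¹ * ρ⁻¹ := by group
  have r3 : s * d = d⁻¹ * s := by
    rw [hd]
    calc s * (ρ * c * ρ⁻¹) = (s * ρ) * c * ρ⁻¹ := by group
      _ = ρ⁻¹ * (s * c) * ρ⁻¹ := by rw [hsρ]; group
      _ = (ρ⁻¹ * c) * (s * ρ⁻¹) := by rw [hsc]; group
      _ = d⁻¹ * s := by rw [r2', hsρi]; group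
      _ = (ρ * c * ρ⁻¹)⁻¹ * s := by rw [← hd]
  have hd3 : d ^ 3 = 1 := hexp d hdA
  have aux : s * d = d * s → False := by
    intro h
    apply hd1
    apply h11_eq_one_of_eq_inv d hd3
    rw [r3] at h
    exact (mul_right_cancel h).symm
  refine ⟨hdA, hd1, ?_, ?_, r1, r2, r3⟩
  · intro h
    apply aux
    rw [h]; exact hsc
  · intro h
    apply aux
    rw [h]
    calc s * c⁻¹ = c⁻¹ * (c * s) * c⁻¹ := by group
      _ = c⁻¹ * (s * c) * c⁻¹ := by rw [hsc]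
      _ = c⁻¹ * s := by group

end Cfsg.Agent.Lib.Helper35.D8M
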