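import Cfsg.Agent.Lib.Helper35.D8M.Defs

set_option autoImplicit false

/-! # S4407 farm, piece P3: `exists_fix` -/

namespace Cfsg.Agent.Lib.Helper35.D8M

open DihedralGroup

theorem h11_sum_zero {S : Type*} [Group S] {M : Type*} [AddCommGroup M] [Module (ZMod 2) M]
    (ρ : Representation (ZMod 2) S M) (g : S) (hg3 : g ^ 3 = 1)
    (hno : ∀ m, ρ g m = m → m = 0) (m : M) : ρ g (ρ g m) = m + ρ g m := by
  have h3 : ρ g (ρ g (ρ g m)) = m := by
    have : ρ (g ^ 3) m = m := by rw [hg3, map_one]; rfl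
    rw [pow_succ, pow_succ, pow_one, map_mul, map_mul] at this
    exact this
  have h0 : m + ρ g m + ρ g (ρ g m) = 0 := by
    apply hno
    rw [map_add, map_add, h3]
    abel
  rw [eq_neg_of_add_eq_zero_right h0, ZModModule.neg_eq_self]

theorem exists_fix {S : Type*} [Group S] {M : Type*} [AddCommGroup M] [Module (ZMod 2) M]
    (ρ : Representation (ZMod 2) S M) (hfaith : Function.Injective ρ) (c d : S)
    (hcd : c * d = d * c) (hc3 : c ^ 3 = 1) (hd3 : d ^ 3 = 1) (hne : c ≠ d) :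
    (∃ m, m ≠ 0 ∧ ρ c m = m) ∨ (∃ m, m ≠ 0 ∧ ρ d m = m) ∨ (∃ m, m ≠ 0 ∧ ρ (c * d) m = m) := by
  by_contra hcon
  push Not at hcon
  obtain ⟨h1, h2, h3⟩ := hcon
  have n1 : ∀ m, ρ c m = m → m = 0 := fun m hm => by
    by_contra h0; exact h1 m h0 hm
  have n2 : ∀ m, ρ d m = m → m = 0 := fun m hm => by
    by_contra h0; exact h2 m h0 hm
  have n3 : ∀ m, ρ (c * d) m = m → m = 0 := fun m hm => by
    by_contra h0; exact h3 m h0 hm
  have hcd3 : (c * d) ^ 3 = 1 := by
    rw [(show Commute c d from hcd).mul_pow, hc3, hd3, one_mul]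
  have s1 := h11_sum_zero ρ c hc3 n1
  have s2 := h11_sum_zero ρ d hd3 n2
  have s3 := h11_sum_zero ρ (c * d) hcd3 n3
  have hcomm : ∀ m, ρ c (ρ d m) = ρ d (ρ c m) := by
    intro m
    have : ρ (c * d) m = ρ (d * c) m := by rw [hcd]
    rwa [map_mul, map_mul] at this
  apply hne
  apply hfaith
  ext m
  have e := s3 m
  simp only [map_mul, Module.End.mul_apply] at e
  -- c d c d m = m + c d m
  rw [← hcomm (ρ d m), s1, s2, map_add] at e
  have h0 : (m + ρ c (ρ d m)) + (ρ d m + ρ c m) = (m + ρ c (ρ d m)) + 0 := by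
    calc (m + ρ c (ρ d m)) + (ρ d m + ρ c m) = m + ρ d m + (ρ c m + ρ c (ρ d m)) := by abel
      _ = m + ρ c (ρ d m) := e
      _ = _ := (add_zero _).symm
  have h0' := add_left_cancel h0
  rw [eq_neg_of_add_eq_zero_right h0', ZModModule.neg_eq_self]

end Cfsg.Agent.Lib.Helper35.D8M
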