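import Cfsg.Agent.Lib.Helper11.D8M.P2A

set_option autoImplicit false

/-! # S4407 farm, piece P5: `inv_of_gens`, `disj_fix` -/

namespace Cfsg.Agent.Lib.Helper35.D8M

open DihedralGroup

theorem inv_of_gens {S : Type*} [Group S] [Finite S] (A : Subgroup S)
    (hexp : ∀ x ∈ A, x ^ 3 = 1) (hA9 : Nat.card A = 9) (ψ : DihedralGroup 4 →* S)
    (hAX : A ⊔ ψ.range = ⊤) (k : ZMod 4) (c d : S) (hc : c ∈ A) (hd : d ∈ A) (hc1 : c ≠ 1)
    (hd1 : d ≠ 1) (hdc : d ≠ c) (hdc' : d ≠ c⁻¹)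
    {M : Type*} [AddCommGroup M] [Module (ZMod 2) M] (ρ : Representation (ZMod 2) S M)
    (N : Submodule (ZMod 2) M) (h1 : ∀ m ∈ N, ρ c m ∈ N) (h2 : ∀ m ∈ N, ρ d m ∈ N)
    (h3 : ∀ m ∈ N, ρ (ψ (r 1)) m ∈ N) (h4 : ∀ m ∈ N, ρ (ψ (sr k)) m ∈ N) :
    ∀ s : S, ∀ m ∈ N, ρ s m ∈ N := by
  -- the submonoid of elements preserving N is a subgroup since S is finite
  let T0 : Submonoid S :=
    { carrier := {g | ∀ m ∈ N, ρ g m ∈ N}
      one_mem' := by intro m hm; simpa using hm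
      mul_mem' := by
        intro a b ha hb m hm
        rw [map_mul]
        exact ha _ (hb m hm) }
  let T : Subgroup S :=
    { T0 with
      inv_mem' := by
        intro g hg
        have : g⁻¹ = g ^ (orderOf g - 1) := by
          have ho := orderOf_pos g
          rw [eq_comm, ← mul_eq_one_iff_eq_inv, ← pow_succ, Nat.sub_add_cancel ho, pow_orderOf_eq_one]
        rw [this]
        exact T0.pow_mem hg _ }
  have hTmem : ∀ g, g ∈ T ↔ ∀ m ∈ N, ρ g m ∈ N := fun g => Iff.rfl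
  have hAT : A ≤ T := by
    have := gen A hexp hA9 (T ⊓ A) inf_le_right c d ⟨h1, hc⟩ ⟨h2, hd⟩ hc1 hd1 hdc hdc'
    rw [← this]; exact inf_le_left
  have hψT : ψ.range ≤ T := by
    rintro _ ⟨e, rfl⟩
    have hgen : ∀ (k : ZMod 4) (e : DihedralGroup 4),
        ∃ i : ℕ, e = (r 1) ^ i ∨ e = sr k * (r 1) ^ i := by
      intro k e
      have : ∃ i : Fin 4, e = (r 1) ^ (i : ℕ) ∨ e = sr k * (r 1) ^ (i : ℕ) := by
        revert k e; decide
      obtain ⟨i, hi⟩ := this
      exact ⟨i, hi⟩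
    obtain ⟨i, hi | hi⟩ := hgen k e
    · rw [hi, map_pow]; exact T.pow_mem h3 _
    · rw [hi, map_mul, map_pow]; exact T.mul_mem h4 (T.pow_mem h3 _)
  have hTtop : T = ⊤ := by
    rw [eq_top_iff, ← hAX]; exact sup_le hAT hψT
  intro s
  have : s ∈ T := by rw [hTtop]; trivial
  exact this

theorem disj_fix {S : Type*} [Group S] [Finite S] (A : Subgroup S) [A.Normal]
    (hexp : ∀ x ∈ A, x ^ 3 = 1) (hA9 : Nat.card A = 9) (c d : S) (hc : c ∈ A) (hd : d ∈ A)
    (hc1 : c ≠ 1) (hd1 : d ≠ 1) (hdc : d ≠ c) (hdc' : d ≠ c⁻¹)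
    {M : Type*} [AddCommGroup M] [Module (ZMod 2) M] (ρ : Representation (ZMod 2) S M)
    (hfaith : Function.Injective ρ)
    (hirr : ∀ N : Submodule (ZMod 2) M, (∀ s : S, ∀ m ∈ N, ρ s m ∈ N) → N = ⊥ ∨ N = ⊤) :
    ∀ m, ρ c m = m → ρ d m = m → m = 0 := by
  let W : Submodule (ZMod 2) M :=
    { carrier := {m | ∀ x ∈ A, ρ x m = m}
      zero_mem' := by intro x _; simp
      add_mem' := by
        intro a b ha hb x hx
        rw [map_add, ha x hx, hb x hx]
      smul_mem' := by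
        intro t a ha x hx
        rw [map_smul, ha x hx] }
  have hWmem : ∀ m, m ∈ W ↔ ∀ x ∈ A, ρ x m = m := fun m => Iff.rfl
  have hWinv : ∀ s : S, ∀ m ∈ W, ρ s m ∈ W := by
    intro s m hm x hx
    have hx' : s⁻¹ * x * s ∈ A := by
      have := (inferInstance : A.Normal).conj_mem x hx s⁻¹
      rwa [inv_inv] at this
    have e : x * s = s * (s⁻¹ * x * s) := by group
    calc ρ x (ρ s m) = ρ (x * s) m := by rw [map_mul]; rfl
      _ = ρ (s * (s⁻¹ * x * s)) m := by rw [← e]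
      _ = ρ s (ρ (s⁻¹ * x * s) m) := by rw [map_mul]; rfl
      _ = ρ s m := by rw [hm _ hx']
  have hWbot : W = ⊥ := by
    rcases hirr W hWinv with h | h
    · exact h
    · exfalso
      apply hc1
      apply hfaith
      ext m
      have : m ∈ W := by rw [h]; trivial
      rw [this c hc, map_one]; rfl
  intro m hcm hdm
  let T : Subgroup S :=
    { carrier := {x | ρ x m = m}
      one_mem' := by simp
      mul_mem' := by
        intro a b ha hb
        simp only [Set.mem_ofPred_eq] at ha hb ⊢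
        rw [map_mul, Module.End.mul_apply, hb, ha]
      inv_mem' := by
        intro a ha
        simp only [Set.mem_ofPred_eq] at ha ⊢
        calc ρ a⁻¹ m = ρ a⁻¹ (ρ a m) := by rw [ha]
          _ = ρ (a⁻¹ * a) m := by rw [map_mul]; rfl
          _ = m := by rw [inv_mul_cancel, map_one]; rfl }
  have hTA := gen A hexp hA9 (T ⊓ A) inf_le_right c d ⟨hcm, hc⟩ ⟨hdm, hd⟩ hc1 hd1 hdc hdc'
  have : m ∈ W := by
    intro x hx
    rw [← hTA] at hx
    exact hx.1
  rw [hWbot] at this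
  exact (Submodule.mem_bot _).1 this

end Cfsg.Agent.Lib.Helper35.D8M
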